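import Cfsg.Agent.H476.TF.Core
import Cfsg.Agent.KFacts.TwF4.Inst

/-!
# The configuration of `Core` in the Tits group (helper476)

The first part (relations of `E = ⟨z, o 0, o 1, (e 0)², (e 2)²⟩ = 2 ^ 5` and the four transvections) is copied from
`H95/LSx/Tits.lean` (helper95), without its imports.
-/

set_option autoImplicit false
set_option linter.unusedSectionVars false
set_option linter.unusedSimpArgs false
set_option linter.deprecated false

namespace Cfsg.Agent.H476.TF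

open Subgroup Cfsg Cfsg.Agent.KFacts.TwF4 Cfsg.Agent.KFacts.TwF4.Inst
open scoped commutatorElement

universe u v

section

variable {F : Type u} [Field F] {σ : F →+* F} {G : Type u} [Group G] (S : Sys σ G)

theorem ez (a : ZMod 8) : S.e a 0 0 = 1 := by
  have := S.e_mul a 0 0 0 0
  simp only [add_zero, map_zero, mul_zero] at this
  exact mul_eq_left.1 this

theorem oz (a : ZMod 8) : S.o a 0 = 1 := by
  have := S.o_add a 0 0
  rw [add_zero] at this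
  exact mul_eq_left.1 this

theorem XA0 (s t : F) : S.e 1 0 s * S.o 0 t = S.o 0 t * S.e 1 0 s := (S.o_e1 0 t 0 s).symm
theorem XA1 (s t : F) : S.e 1 0 s * S.o 1 t = S.o 1 t * S.e 1 0 s := S.e_o0 1 0 s t
theorem XB0 (s q v : F) : S.e 1 0 s * S.e 2 q v = S.e 2 q v * S.e 1 0 s := by
  have := S.e_e1 1 0 s q v
  rw [zero_mul, oz, mul_one] at this
  exact this
theorem XB1 (s q v : F) : S.e 1 0 s * S.e 0 q v = S.e 0 q v * S.e 1 0 s := by
  have := S.e_e1 0 q v 0 s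
  rw [mul_zero, oz, mul_one, zero_add] at this
  exact this.symm

theorem comm_mem {a b c : G} (h : a * b = b * a * c) : c ∈ commutator G := by
  have h1 : c = ⁅a⁻¹, b⁻¹⁆ := by
    rw [commutatorElement_def, inv_inv, inv_inv, mul_assoc, h]
    group
  rw [h1]
  exact commutator_mem_commutator (mem_top _) (mem_top _)

theorem o_mem (a : ZMod 8) : S.o a 1 ∈ commutator G := by
  have h := S.e_e1 a 1 0 1 0
  rw [mul_one] at h
  exact comm_mem h

theorem e0_mem (a : ZMod 8) : S.e a 0 1 ∈ commutator G := by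
  have h := S.o_e2 (a - 1) 1 1 0
  rw [mul_one, sub_add_cancel] at h
  exact comm_mem h

theorem of_eq_one {x : G} : Abelianization.of x = 1 ↔ x ∈ commutator G := QuotientGroup.eq_one_iff x

theorem ab_e (a b : ZMod 8) : Abelianization.of (S.e a 1 0) = Abelianization.of (S.e b 1 0) := by
  have h1 : ∀ c : ZMod 8, Abelianization.of (S.e c 1 0) = Abelianization.of (S.e 0 1 0) := by
    refine Sys.ind8 0 rfl ?_
    intro c hc
    rw [← S.rot_e c 1 0, map_mul, map_mul, map_inv, mul_comm, inv_mul_cancel_left, hc]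
  rw [h1 a, h1 b]

theorem e_cc (a : ZMod 8) : S.e a 1 0 * S.e a 0 1 = S.e a 0 1 * S.e a 1 0 := by
  rw [S.e_mul, S.e_mul, map_zero, mul_zero, zero_mul]
  simp only [add_zero, zero_add]

variable (h2 : (2 : F) = 0)

include h2 in
theorem one_one : (1 : F) + 1 = 0 := by rw [one_add_one_eq_two, h2]

include h2 in
theorem e_sq (a : ZMod 8) : S.e a 1 0 * S.e a 1 0 = S.e a 0 1 := by
  rw [S.e_mul, map_one, one_one h2, mul_one, add_zero, zero_add]

include h2 in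
theorem e0_sq (a : ZMod 8) : S.e a 0 1 * S.e a 0 1 = 1 := by
  rw [S.e_mul, zero_mul, add_zero, add_zero, one_one h2, ez]

include h2 in
theorem o_sq (a : ZMod 8) : S.o a 1 * S.o a 1 = 1 := by
  rw [S.o_add, one_one h2, oz]

include h2 in
theorem ee_mem (a b : ZMod 8) : S.e a 1 0 * S.e b 1 0 ∈ commutator G := by
  rw [← of_eq_one, map_mul, ab_e S a b, ← map_mul, of_eq_one, e_sq S h2]
  exact e0_mem S b

theorem cjA {a b c : G} (h : a * b = b * a * c) (hbc : b * c = c * b) (hc : c * c = 1) : b * a * b⁻¹ = a * c := by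
  have h1 : b * a = a * c * b := by
    rw [mul_assoc a, ← hbc, ← mul_assoc, h, mul_assoc, hc, mul_one]
  rw [h1, mul_inv_cancel_right]

theorem cjB {a b c : G} (h : a * b = b * a * c) (hac : a * c = c * a) : a * b * a⁻¹ = b * c := by
  rw [h, mul_assoc b, hac, ← mul_assoc, mul_inv_cancel_right]

theorem cj1 {a b : G} (h : a * b = b * a) : a * b * a⁻¹ = b := by rw [h, mul_inv_cancel_right]

/-- the four involutions -/
def xx (S : Sys σ G) : Fin 4 → G := ![S.o 0 1, S.o 1 1, S.e 0 0 1, S.e 2 0 1]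
/-- the four "transvections" -/
def yy (S : Sys σ G) : Fin 4 → G := ![S.e 1 1 0 * S.e 2 1 0, S.e 1 1 0 * S.e 0 1 0, S.o 2 1, S.o 7 1]

theorem xx_mem (i : Fin 4) : xx S i ∈ commutator G := by
  revert i
  rw [Fin.forall_fin_succ, Fin.forall_fin_succ, Fin.forall_fin_two]
  exact ⟨o_mem S 0, o_mem S 1, e0_mem S 0, e0_mem S 2⟩

include h2 in
theorem yy_mem (i : Fin 4) : yy S i ∈ commutator G := by
  revert i
  rw [Fin.forall_fin_succ, Fin.forall_fin_succ, Fin.forall_fin_two]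
  exact ⟨ee_mem S h2 1 2, ee_mem S h2 1 0, o_mem S 2, o_mem S 7⟩

include h2 in
theorem xx_sq (i : Fin 4) : xx S i * xx S i = 1 := by
  revert i
  rw [Fin.forall_fin_succ, Fin.forall_fin_succ, Fin.forall_fin_two]
  exact ⟨o_sq S h2 0, o_sq S h2 1, e0_sq S h2 0, e0_sq S h2 2⟩

theorem xx_z (i : Fin 4) : xx S i * S.e 1 0 1 = S.e 1 0 1 * xx S i := by
  revert i
  rw [Fin.forall_fin_succ, Fin.forall_fin_succ, Fin.forall_fin_two]
  exact ⟨(XA0 S 1 1).symm, (XA1 S 1 1).symm, (XB1 S 1 0 1).symm, (XB0 S 1 0 1).symm⟩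

/-- the relations between `o`s and `e`s that are needed -/
theorem xx_xx (i j : Fin 4) : xx S i * xx S j = xx S j * xx S i := by
  have key : ∀ i j : Fin 4, i < j → xx S i * xx S j = xx S j * xx S i := by
    intro i j hij
    fin_cases i <;> fin_cases j <;> first | exact absurd hij (by decide) | skip
    · exact S.o_o1 0 1 1
    · exact (S.e_o0 0 0 1 1).symm
    · have := S.o_e2 0 1 0 1
      rw [mul_zero, ez, mul_one] at this
      exact this
    · have := S.e_o1 0 0 1 1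
      rw [zero_mul, ez, mul_one] at this
      exact this.symm
    · exact S.o_e1 1 1 0 1
    · exact S.e_e2 0 0 1 0 1
  rcases lt_trichotomy i j with h | h | h
  · exact key i j h
  · rw [h]
  · exact (key j i h).symm

theorem yy_z (i : Fin 4) : yy S i * S.e 1 0 1 * (yy S i)⁻¹ = S.e 1 0 1 := by
  have h1 := e_cc S 1
  revert i
  rw [Fin.forall_fin_succ, Fin.forall_fin_succ, Fin.forall_fin_two]
  refine ⟨?_, ?_, ?_, ?_⟩
  · have h3 : S.e 2 1 0 * S.e 1 0 1 = S.e 1 0 1 * S.e 2 1 0 := (XB0 S 1 1 0).symm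
    refine cj1 ?_
    show S.e 1 1 0 * S.e 2 1 0 * S.e 1 0 1 = S.e 1 0 1 * (S.e 1 1 0 * S.e 2 1 0)
    rw [mul_assoc, h3, ← mul_assoc, h1, mul_assoc]
  · have h3 : S.e 0 1 0 * S.e 1 0 1 = S.e 1 0 1 * S.e 0 1 0 := (XB1 S 1 1 0).symm
    refine cj1 ?_
    show S.e 1 1 0 * S.e 0 1 0 * S.e 1 0 1 = S.e 1 0 1 * (S.e 1 1 0 * S.e 0 1 0)
    rw [mul_assoc, h3, ← mul_assoc, h1, mul_assoc]
  · have h3 := S.e_o1 1 0 1 1
    rw [zero_mul, ez, mul_one] at h3
    exact cj1 h3.symm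
  · have h3 := S.o_e2 7 1 0 1
    rw [mul_zero, ez, mul_one] at h3
    exact cj1 h3

include h2 in
theorem yy_xx (i j : Fin 4) : yy S i * xx S j * (yy S i)⁻¹ = if i = j then xx S j * S.e 1 0 1 else xx S j := by
  -- `e 1 1 0` centralises all `xx`
  have hc : ∀ j, S.e 1 1 0 * xx S j * (S.e 1 1 0)⁻¹ = xx S j := by
    rw [Fin.forall_fin_succ, Fin.forall_fin_succ, Fin.forall_fin_two]
    refine ⟨cj1 (S.o_e1 0 1 1 0).symm, cj1 (S.e_o0 1 1 0 1), ?_, ?_⟩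
    · have h := S.e_e1 0 0 1 1 0
      rw [zero_mul, oz, mul_one] at h
      exact cj1 h.symm
    · have h := S.e_e1 1 1 0 0 1
      rw [mul_zero, oz, mul_one] at h
      exact cj1 h
  have hz : S.e 1 1 0 * S.e 1 0 1 * (S.e 1 1 0)⁻¹ = S.e 1 0 1 := by
    exact cj1 (e_cc S 1)
  have cjm : ∀ a b c : G, a * b * c * (a * b)⁻¹ = a * (b * c * b⁻¹) * a⁻¹ := fun a b c => by group
  have cjmm : ∀ a b c : G, a * (b * c) * a⁻¹ = (a * b * a⁻¹) * (a * c * a⁻¹) := fun a b c => by group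
  fin_cases i
  · -- `e 1 1 0 * e 2 1 0`
    have hh : ∀ j, S.e 2 1 0 * xx S j * (S.e 2 1 0)⁻¹ = if (0 : Fin 4) = j then xx S j * S.e 1 0 1 else xx S j := by
      rw [Fin.forall_fin_succ, Fin.forall_fin_succ, Fin.forall_fin_two]
      refine ⟨?_, ?_, ?_, ?_⟩
      · rw [if_pos rfl]
        have h := S.o_e2 0 1 1 0
        rw [mul_one] at h
        exact cjA h (XB0 S 1 1 0).symm (e0_sq S h2 1)
      · rw [if_neg (by decide)]
        exact cj1 (S.o_e1 1 1 1 0).symm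
      · rw [if_neg (by decide)]
        exact cj1 (S.e_e2 0 0 1 1 0).symm
      · rw [if_neg (by decide)]
        exact cj1 (e_cc S 2)
    show S.e 1 1 0 * S.e 2 1 0 * xx S j * (S.e 1 1 0 * S.e 2 1 0)⁻¹ =
      if (0 : Fin 4) = j then xx S j * S.e 1 0 1 else xx S j
    rw [cjm, hh]
    split_ifs
    · rw [cjmm, hc, hz]
    · rw [hc]
  · have hh : ∀ j, S.e 0 1 0 * xx S j * (S.e 0 1 0)⁻¹ = if (1 : Fin 4) = j then xx S j * S.e 1 0 1 else xx S j := by
      rw [Fin.forall_fin_succ, Fin.forall_fin_succ, Fin.forall_fin_two]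
      refine ⟨?_, ?_, ?_, ?_⟩
      · rw [if_neg (by decide)]
        exact cj1 (S.e_o0 0 1 0 1)
      · rw [if_pos (by decide)]
        have h := S.e_o1 0 1 0 1
        rw [mul_one] at h
        exact cjB h (XB1 S 1 1 0).symm
      · rw [if_neg (by decide)]
        exact cj1 (e_cc S 0)
      · rw [if_neg (by decide)]
        exact cj1 (S.e_e2 0 1 0 0 1)
    show S.e 1 1 0 * S.e 0 1 0 * xx S j * (S.e 1 1 0 * S.e 0 1 0)⁻¹ =
      if (1 : Fin 4) = j then xx S j * S.e 1 0 1 else xx S j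
    rw [cjm, hh]
    split_ifs
    · rw [cjmm, hc, hz]
    · rw [hc]
  · show S.o 2 1 * xx S j * (S.o 2 1)⁻¹ = if (2 : Fin 4) = j then xx S j * S.e 1 0 1 else xx S j
    revert j
    rw [Fin.forall_fin_succ, Fin.forall_fin_succ, Fin.forall_fin_two]
    refine ⟨?_, ?_, ?_, ?_⟩
    · rw [if_neg (by decide)]
      exact cj1 (S.o_o2 0 1 1).symm
    · rw [if_neg (by decide)]
      exact cj1 (S.o_o1 1 1 1).symm
    · rw [if_pos (by decide)]
      have h := S.e_o2 0 0 1 1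
      rw [zero_mul, zero_mul, zero_mul, map_zero, zero_mul, zero_add, one_mul, oz, mul_one, ez,
        mul_one, zero_add, zero_add] at h
      have h3 := S.e_o1 1 0 1 1
      rw [zero_mul, ez, mul_one] at h3
      exact cjA h h3.symm (e0_sq S h2 1)
    · rw [if_neg (by decide)]
      exact cj1 (S.e_o0 2 0 1 1).symm
  · show S.o 7 1 * xx S j * (S.o 7 1)⁻¹ = if (3 : Fin 4) = j then xx S j * S.e 1 0 1 else xx S j
    revert j
    rw [Fin.forall_fin_succ, Fin.forall_fin_succ, Fin.forall_fin_two]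
    refine ⟨?_, ?_, ?_, ?_⟩
    · rw [if_neg (by decide)]
      exact cj1 (S.o_o1 7 1 1)
    · rw [if_neg (by decide)]
      exact cj1 (S.o_o2 7 1 1)
    · rw [if_neg (by decide)]
      exact cj1 (S.o_e1 7 1 0 1)
    · rw [if_pos (by decide)]
      have h := S.o_e3 7 1 0 1
      rw [mul_zero, ez, mul_one, map_zero, mul_zero, oz, mul_one, mul_zero, zero_add,
        mul_one] at h
      have h3 := S.o_e2 7 1 0 1
      rw [mul_zero, ez, mul_one] at h3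
      exact cjB h h3


/-- the element which moves `e 1 0 1` to `e 0 0 1` -/
def gg (S : Sys σ G) : G := (S.o 2 1)⁻¹ * S.o 6 1

theorem gg_mem : gg S ∈ commutator G := mul_mem (inv_mem (o_mem S 2)) (o_mem S 6)

include h2 in
theorem gg_conj : gg S * S.e 1 0 1 * (gg S)⁻¹ = xx S 2 := by
  have h1 : S.o 6 1 * S.e 1 0 1 * (S.o 6 1)⁻¹ = S.e 1 0 1 * S.e 0 0 1 := by
    have h := S.o_e3 6 1 0 1
    rw [mul_zero, ez, mul_one, map_zero, mul_zero, oz, mul_one, mul_zero, zero_add,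
      mul_one] at h
    have h3 := S.o_e2 6 1 0 1
    rw [mul_zero, ez, mul_one] at h3
    exact cjB h h3
  have h3 : S.o 2 1 * S.e 0 0 1 * (S.o 2 1)⁻¹ = S.e 0 0 1 * S.e 1 0 1 := by
    have h := S.e_o2 0 0 1 1
    rw [zero_mul, zero_mul, zero_mul, map_zero, zero_mul, zero_add, one_mul, oz, mul_one, ez,
      mul_one, zero_add, zero_add] at h
    have h3 := S.e_o1 1 0 1 1
    rw [zero_mul, ez, mul_one] at h3
    exact cjA h h3.symm (e0_sq S h2 1)
  have h4 : S.e 1 0 1 * S.e 0 0 1 = S.e 0 0 1 * S.e 1 0 1 := (xx_z S 2).symm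
  show (S.o 2 1)⁻¹ * S.o 6 1 * S.e 1 0 1 * ((S.o 2 1)⁻¹ * S.o 6 1)⁻¹ = S.e 0 0 1
  have h5 : (S.o 2 1)⁻¹ * S.o 6 1 * S.e 1 0 1 * ((S.o 2 1)⁻¹ * S.o 6 1)⁻¹ =
      (S.o 2 1)⁻¹ * (S.o 6 1 * S.e 1 0 1 * (S.o 6 1)⁻¹) * S.o 2 1 := by group
  rw [h5, h1, h4, ← h3]
  group

/-! ### the action of `e 3 0 1` and `e 7 0 1` -/

theorem e_comm1 (a : ZMod 8) : S.e a 0 1 * S.e (a + 1) 0 1 = S.e (a + 1) 0 1 * S.e a 0 1 := by
  have := S.e_e1 a 0 1 0 1
  rw [mul_zero, oz, mul_one] at this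
  exact this

theorem c3_z : S.e 3 0 1 * S.e 1 0 1 * (S.e 3 0 1)⁻¹ = S.e 1 0 1 := cj1 (S.e_e2 1 0 1 0 1).symm

theorem c3_3 : S.e 3 0 1 * S.e 2 0 1 * (S.e 3 0 1)⁻¹ = S.e 2 0 1 := cj1 (e_comm1 S 2).symm

theorem c3_1 : S.e 3 0 1 * S.o 1 1 * (S.e 3 0 1)⁻¹ = S.o 1 1 := by
  have h := S.o_e2 1 1 0 1
  rw [mul_zero, ez, mul_one] at h
  exact cj1 h.symm

include h2 in
theorem c3_0 : S.e 3 0 1 * S.o 0 1 * (S.e 3 0 1)⁻¹ = S.o 0 1 * S.e 2 0 1 := by
  have h := S.o_e3 0 1 0 1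
  rw [mul_zero, zero_add, ez, mul_one, map_zero, mul_zero, oz, mul_one, mul_zero, zero_add, mul_one, zero_add] at h
  exact cjA h (e_comm1 S 2).symm (e0_sq S h2 2)

theorem c7_z : S.e 7 0 1 * S.e 1 0 1 * (S.e 7 0 1)⁻¹ = S.e 1 0 1 := cj1 (S.e_e2 7 0 1 0 1)

theorem c7_2 : S.e 7 0 1 * S.e 0 0 1 * (S.e 7 0 1)⁻¹ = S.e 0 0 1 := cj1 (e_comm1 S 7)

theorem c7_0 : S.e 7 0 1 * S.o 0 1 * (S.e 7 0 1)⁻¹ = S.o 0 1 := by
  have h := S.e_o1 7 0 1 1
  rw [zero_mul, ez, mul_one] at h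
  exact cj1 h

theorem c7_1 : S.e 7 0 1 * S.o 1 1 * (S.e 7 0 1)⁻¹ = S.o 1 1 * S.e 0 0 1 := by
  have h := S.e_o2 7 0 1 1
  rw [zero_mul, zero_mul, zero_mul, map_zero, zero_mul, zero_add, one_mul, oz, mul_one, ez, mul_one] at h
  exact cjB h (e_comm1 S 7)

theorem c7_3 : S.e 7 0 1 * S.e 2 0 1 * (S.e 7 0 1)⁻¹ = S.e 2 0 1 * (S.e 0 0 1 * S.o 0 1 * S.e 1 0 1) := by
  have h := S.e_e3 7 0 1 0 1
  simp only [mul_zero, zero_mul, map_zero, map_one, mul_one, one_mul, zero_add, add_zero, oz, ez] at h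
  have h' : S.e 7 0 1 * S.e 2 0 1 = S.e 2 0 1 * S.e 7 0 1 * (S.e 0 0 1 * S.o 0 1 * S.e 1 0 1) := by
    rw [← mul_assoc, ← mul_assoc]
    exact h
  refine cjB h' ?_
  have h1 : S.e 7 0 1 * S.e 0 0 1 = S.e 0 0 1 * S.e 7 0 1 := mul_inv_eq_iff_eq_mul.1 (c7_2 S)
  have h3 : S.e 7 0 1 * S.o 0 1 = S.o 0 1 * S.e 7 0 1 := mul_inv_eq_iff_eq_mul.1 (c7_0 S)
  have h4 : S.e 7 0 1 * S.e 1 0 1 = S.e 1 0 1 * S.e 7 0 1 := mul_inv_eq_iff_eq_mul.1 (c7_z S)
  exact (Commute.mul_right (Commute.mul_right h1 h3) h4).eq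

theorem sq_mul {G : Type*} [Group G] {a b : G} (h : a * b = b * a) (ha : a * a = 1) (hb : b * b = 1) :
    (a * b) * (a * b) = 1 := by
  calc (a * b) * (a * b) = (a * b) * (b * a) := by rw [h]
    _ = a * (b * b) * a := by group
    _ = 1 := by rw [hb, mul_one, ha]

include h2 in
theorem c3_2 : S.e 3 0 1 * S.e 0 0 1 * (S.e 3 0 1)⁻¹ = S.e 0 0 1 * (S.e 1 0 1 * S.o 1 1 * S.e 2 0 1) := by
  have h := S.e_e3 0 0 1 0 1
  simp only [mul_zero, zero_mul, map_zero, map_one, mul_one, one_mul, zero_add, add_zero, oz, ez] at h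
  have h' : S.e 0 0 1 * S.e 3 0 1 = S.e 3 0 1 * S.e 0 0 1 * (S.e 1 0 1 * S.o 1 1 * S.e 2 0 1) := by
    rw [← mul_assoc, ← mul_assoc]
    exact h
  have k1 : S.e 3 0 1 * S.e 1 0 1 = S.e 1 0 1 * S.e 3 0 1 := mul_inv_eq_iff_eq_mul.1 (c3_z S)
  have k2 : S.e 3 0 1 * S.o 1 1 = S.o 1 1 * S.e 3 0 1 := mul_inv_eq_iff_eq_mul.1 (c3_1 S)
  have k3 : S.e 3 0 1 * S.e 2 0 1 = S.e 2 0 1 * S.e 3 0 1 := mul_inv_eq_iff_eq_mul.1 (c3_3 S)
  refine cjA h' (Commute.mul_right (Commute.mul_right k1 k2) k3).eq ?_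
  have q1 : S.e 1 0 1 * S.o 1 1 = S.o 1 1 * S.e 1 0 1 := (xx_z S 1).symm
  have q2 : S.e 1 0 1 * S.e 2 0 1 = S.e 2 0 1 * S.e 1 0 1 := (xx_z S 3).symm
  have q3 : S.o 1 1 * S.e 2 0 1 = S.e 2 0 1 * S.o 1 1 := xx_xx S 1 3
  have r2 : (S.e 1 0 1 * S.o 1 1) * S.e 2 0 1 = S.e 2 0 1 * (S.e 1 0 1 * S.o 1 1) :=
    (Commute.mul_left (show Commute (S.e 1 0 1) (S.e 2 0 1) from q2) q3).eq
  exact sq_mul r2 (sq_mul q1 (e0_sq S h2 1) (o_sq S h2 1)) (e0_sq S h2 2)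

end

/-! ### words in commuting involutions -/

theorem words {K : Type*} [CommGroup K] {z x0 x1 x2 x3 : K} (h0 : x0 * x0 = 1) (h1 : x1 * x1 = 1)
    (h2 : x2 * x2 = 1) (h3 : x3 * x3 = 1) :
    x2 * (z * x1 * x3) = x1 * x2 * x3 * z ∧
    (x1 * x2) * x2 * (x3 * (x2 * x0 * z)) = x0 * x1 * x2 * x3 * z ∧
    (x0 * x3) * x1 * (x2 * (z * x1 * x3)) * x3 = x0 * x2 * x3 * z ∧
    x0 * x2 * (x3 * (x2 * x0 * z)) = x3 * z := by
  refine ⟨by ac_rfl, ?_, ?_, ?_⟩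
  · have : (x1 * x2) * x2 * (x3 * (x2 * x0 * z)) = x0 * x1 * x2 * x3 * z * (x2 * x2) := by ac_rfl
    rw [this, h2, mul_one]
  · have : (x0 * x3) * x1 * (x2 * (z * x1 * x3)) * x3 = x0 * x2 * x3 * z * (x1 * x1) * (x3 * x3) := by ac_rfl
    rw [this, h1, h3, mul_one, mul_one]
  · have : x0 * x2 * (x3 * (x2 * x0 * z)) = x3 * z * (x0 * x0) * (x2 * x2) := by ac_rfl
    rw [this, h0, h2, mul_one, mul_one]

theorem words' {G : Type*} [Group G] {z : G} {x : Fin 4 → G} (hx : ∀ i, x i * x i = 1)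
    (hxz : ∀ i, x i * z = z * x i) (hxx : ∀ i j, x i * x j = x j * x i) :
    x 2 * (z * x 1 * x 3) = x 1 * x 2 * x 3 * z ∧
    (x 1 * x 2) * x 2 * (x 3 * (x 2 * x 0 * z)) = x 0 * x 1 * x 2 * x 3 * z ∧
    (x 0 * x 3) * x 1 * (x 2 * (z * x 1 * x 3)) * x 3 = x 0 * x 2 * x 3 * z ∧
    x 0 * x 2 * (x 3 * (x 2 * x 0 * z)) = x 3 * z := by
  have hR : ∀ a ∈ insert z (Set.range x), ∀ b ∈ insert z (Set.range x), a * b = b * a := by
    rintro _ (rfl | ⟨i, rfl⟩) _ (rfl | ⟨j, rfl⟩)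
    · rfl
    · exact (hxz j).symm
    · exact hxz i
    · exact hxx i j
  let _ : CommGroup (closure (insert z (Set.range x))) := Subgroup.closureCommGroupOfComm hR
  have mz : z ∈ closure (insert z (Set.range x)) := subset_closure (Set.mem_insert _ _)
  have mx : ∀ i, x i ∈ closure (insert z (Set.range x)) := fun i =>
    subset_closure (Set.mem_insert_of_mem _ ⟨i, rfl⟩)
  obtain ⟨w1, w2, w3, w4⟩ := words (K := closure (insert z (Set.range x))) (z := ⟨z, mz⟩) (x0 := ⟨x 0, mx 0⟩)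
    (x1 := ⟨x 1, mx 1⟩) (x2 := ⟨x 2, mx 2⟩) (x3 := ⟨x 3, mx 3⟩) (Subtype.ext (hx 0))
    (Subtype.ext (hx 1)) (Subtype.ext (hx 2)) (Subtype.ext (hx 3))
  exact ⟨congrArg Subtype.val w1, congrArg Subtype.val w2, congrArg Subtype.val w3, congrArg Subtype.val w4⟩

section

variable {F : Type u} [Field F] {σ : F →+* F} {G : Type u} [Group G] (S : Sys σ G) (h2 : (2 : F) = 0)

theorem isConj_of {G : Type*} [Group G] {g a b : G} {H : Subgroup G} (hg : g ∈ H) (ha : a ∈ H) (hb : b ∈ H)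
    (h : g * a * g⁻¹ = b) : IsConj (⟨a, ha⟩ : H) ⟨b, hb⟩ := isConj_iff.2 ⟨⟨g, hg⟩, Subtype.ext h⟩

include S h2 in
/-- **the configuration** -/
theorem cfg : ∃ (z : ↥(commutator G)) (x : Fin 4 → ↥(commutator G)) (s : (Fin 4 → Bool) → ↥(commutator G)),
    Cfg z x s := by
  let z : ↥(commutator G) := ⟨S.e 1 0 1, e0_mem S 1⟩
  let x : Fin 4 → ↥(commutator G) := fun i => ⟨xx S i, xx_mem S i⟩
  let y : Fin 4 → ↥(commutator G) := fun i => ⟨yy S i, yy_mem S h2 i⟩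
  let g3 : ↥(commutator G) := ⟨S.e 3 0 1, e0_mem S 3⟩
  let g7 : ↥(commutator G) := ⟨S.e 7 0 1, e0_mem S 7⟩
  have zz : z * z = 1 := Subtype.ext (e0_sq S h2 1)
  have z1 : z ≠ 1 := by
    intro h
    have h' : S.e 1 0 1 = 1 := congrArg Subtype.val h
    rw [← ez S 1] at h'
    exact one_ne_zero (S.injE 1 0 1 0 0 h').2
  have hxx : ∀ i, x i * x i = 1 := fun i => Subtype.ext (xx_sq S h2 i)
  have hxz : ∀ i, x i * z = z * x i := fun i => Subtype.ext (xx_z S i)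
  have hcomm : ∀ i j, x i * x j = x j * x i := fun i j => Subtype.ext (xx_xx S i j)
  have hyz : ∀ i, y i * z * (y i)⁻¹ = z := fun i => Subtype.ext (yy_z S i)
  have hyx : ∀ i j, y i * x j * (y i)⁻¹ = if i = j then x j * z else x j := by
    intro i j
    have h := yy_xx S h2 i j
    split_ifs with hij
    · rw [if_pos hij] at h
      exact Subtype.ext h
    · rw [if_neg hij] at h
      exact Subtype.ext h
  let c : ∀ (i : Fin 4) (b : Bool), ↥(commutator G) →* ↥(commutator G) :=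
    fun i b => (MulAut.conj (if b then y i else 1)).toMonoidHom
  have hcz : ∀ i b, c i b z = z := by
    intro i b
    cases b
    · show 1 * z * 1⁻¹ = z
      rw [one_mul, inv_one, mul_one]
    · exact hyz i
  have hcx : ∀ i b j, i ≠ j → c i b (x j) = x j := by
    intro i b j hij
    cases b
    · show 1 * x j * 1⁻¹ = x j
      rw [one_mul, inv_one, mul_one]
    · exact (hyx i j).trans (if_neg hij)
  have hcc : ∀ i b, c i b (x i) = if b then x i * z else x i := by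
    intro i b
    cases b
    · show 1 * x i * 1⁻¹ = x i
      rw [one_mul, inv_one, mul_one]
    · exact (hyx i i).trans (if_pos rfl)
  have hcxz : ∀ (i : Fin 4) (b : Bool) (j : Fin 4) (b' : Bool), i ≠ j →
      c i b (if b' then x j * z else x j) = if b' then x j * z else x j := by
    intro i b j b' hij
    cases b'
    · exact hcx i b j hij
    · show c i b (x j * z) = x j * z
      rw [map_mul, hcx i b j hij, hcz]
  let s : (Fin 4 → Bool) → ↥(commutator G) := fun a => (if a 0 then y 0 else 1) * ((if a 1 then y 1 else 1) *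
    ((if a 2 then y 2 else 1) * (if a 3 then y 3 else 1)))
  have hs : ∀ (a : Fin 4 → Bool) (g : ↥(commutator G)), s a * g * (s a)⁻¹ =
      c 0 (a 0) (c 1 (a 1) (c 2 (a 2) (c 3 (a 3) g))) := by
    intro a g
    show _ = (if a 0 then y 0 else 1) * ((if a 1 then y 1 else 1) * ((if a 2 then y 2 else 1) *
      ((if a 3 then y 3 else 1) * g * (if a 3 then y 3 else 1)⁻¹) * (if a 2 then y 2 else 1)⁻¹) *
      (if a 1 then y 1 else 1)⁻¹) * (if a 0 then y 0 else 1)⁻¹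
    show ((if a 0 then y 0 else 1) * ((if a 1 then y 1 else 1) * ((if a 2 then y 2 else 1) *
      (if a 3 then y 3 else 1)))) * g * ((if a 0 then y 0 else 1) * ((if a 1 then y 1 else 1) *
      ((if a 2 then y 2 else 1) * (if a 3 then y 3 else 1))))⁻¹ = _
    group
  obtain ⟨w1, w2, w3, w4⟩ := words' hxx hxz hcomm
  -- conjugation by `y i` flips
  have hflip : ∀ j, IsConj (pt x j) (pt x j * z) := by
    have m : ∀ (g a b : ↥(commutator G)), g * (a * b) * g⁻¹ = (g * a * g⁻¹) * (g * b * g⁻¹) := fun g a b => by group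
    have e0 : y 2 * x 0 * (y 2)⁻¹ = x 0 := (hyx 2 0).trans (if_neg (by decide))
    have e1 : y 2 * x 1 * (y 2)⁻¹ = x 1 := (hyx 2 1).trans (if_neg (by decide))
    have e2 : y 2 * x 2 * (y 2)⁻¹ = x 2 * z := (hyx 2 2).trans (if_pos rfl)
    have e3 : y 2 * x 3 * (y 2)⁻¹ = x 3 := (hyx 2 3).trans (if_neg (by decide))
    have e4 : y 3 * x 3 * (y 3)⁻¹ = x 3 * z := (hyx 3 3).trans (if_pos rfl)
    intro j
    fin_cases j
    · exact isConj_iff.2 ⟨y 2, e2⟩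
    · exact isConj_iff.2 ⟨y 3, e4⟩
    · refine isConj_iff.2 ⟨y 2, ?_⟩
      show y 2 * (x 1 * x 2 * x 3) * (y 2)⁻¹ = x 1 * x 2 * x 3 * z
      rw [m, m, e1, e2, e3, ← mul_assoc, mul_assoc _ z (x 3), ← hxz 3, ← mul_assoc]
    · refine isConj_iff.2 ⟨y 2, ?_⟩
      show y 2 * (x 0 * x 2 * x 3) * (y 2)⁻¹ = x 0 * x 2 * x 3 * z
      rw [m, m, e0, e2, e3, ← mul_assoc, mul_assoc _ z (x 3), ← hxz 3, ← mul_assoc]
    · refine isConj_iff.2 ⟨y 2, ?_⟩
      show y 2 * (x 0 * x 1 * x 2 * x 3) * (y 2)⁻¹ = x 0 * x 1 * x 2 * x 3 * z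
      rw [m, m, m, e0, e1, e2, e3, ← mul_assoc, mul_assoc _ z (x 3), ← hxz 3, ← mul_assoc]
  have hflip' : ∀ j, IsConj (pt x j * z) (pt x j) := fun j => (hflip j).symm
  have q0 : IsConj z (pt x 0) := isConj_of (gg_mem S) _ _ (gg_conj S h2)
  have m : ∀ (g a b : ↥(commutator G)), g * (a * b) * g⁻¹ = (g * a * g⁻¹) * (g * b * g⁻¹) := fun g a b => by group
  have a30 : g3 * x 0 * g3⁻¹ = x 0 * x 3 := Subtype.ext (c3_0 S h2)
  have a31 : g3 * x 1 * g3⁻¹ = x 1 := Subtype.ext (c3_1 S)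
  have a32 : g3 * x 2 * g3⁻¹ = x 2 * (z * x 1 * x 3) := Subtype.ext (c3_2 S h2)
  have a33 : g3 * x 3 * g3⁻¹ = x 3 := Subtype.ext (c3_3 S)
  have a70 : g7 * x 0 * g7⁻¹ = x 0 := Subtype.ext (c7_0 S)
  have a71 : g7 * x 1 * g7⁻¹ = x 1 * x 2 := Subtype.ext (c7_1 S)
  have a72 : g7 * x 2 * g7⁻¹ = x 2 := Subtype.ext (c7_2 S)
  have a73 : g7 * x 3 * g7⁻¹ = x 3 * (x 2 * x 0 * z) := Subtype.ext (c7_3 S)
  have q2 : IsConj z (pt x 2) := by
    refine q0.trans (IsConj.trans (isConj_iff.2 ⟨g3, ?_⟩) (hflip' 2))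
    show g3 * x 2 * g3⁻¹ = x 1 * x 2 * x 3 * z
    rw [a32, w1]
  have q4 : IsConj z (pt x 4) := by
    refine q2.trans (IsConj.trans (isConj_iff.2 ⟨g7, ?_⟩) (hflip' 4))
    show g7 * (x 1 * x 2 * x 3) * g7⁻¹ = x 0 * x 1 * x 2 * x 3 * z
    rw [m, m, a71, a72, a73, w2]
  have q3 : IsConj z (pt x 3) := by
    refine q4.trans (IsConj.trans (isConj_iff.2 ⟨g3, ?_⟩) (hflip' 3))
    show g3 * (x 0 * x 1 * x 2 * x 3) * g3⁻¹ = x 0 * x 2 * x 3 * z
    rw [m, m, m, a30, a31, a32, a33, w3]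
  have q1 : IsConj z (pt x 1) := by
    refine q3.trans (IsConj.trans (isConj_iff.2 ⟨g7, ?_⟩) (hflip' 1))
    show g7 * (x 0 * x 2 * x 3) * g7⁻¹ = x 3 * z
    rw [m, m, a70, a72, a73, w4]
  have hcon : ∀ j, IsConj z (pt x j) := by
    intro j
    fin_cases j
    · exact q0
    · exact q1
    · exact q2
    · exact q3
    · exact q4
  refine ⟨z, x, s, ⟨z1, zz, hxx, hxz, hcomm, ?_, ?_, hcon, fun j => (hcon j).trans (hflip j)⟩⟩
  · intro a
    rw [hs, hcz, hcz, hcz, hcz]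
  · intro a i
    rw [hs]
    revert i
    rw [Fin.forall_fin_succ, Fin.forall_fin_succ, Fin.forall_fin_two]
    refine ⟨?_, ?_, ?_, ?_⟩
    · rw [hcx 3 _ 0 (by decide), hcx 2 _ 0 (by decide), hcx 1 _ 0 (by decide), hcc]
    · show c 0 (a 0) (c 1 (a 1) (c 2 (a 2) (c 3 (a 3) (x 1)))) = if a 1 then x 1 * z else x 1
      rw [hcx 3 _ 1 (by decide), hcx 2 _ 1 (by decide), hcc, hcxz 0 _ 1 _ (by decide)]
    · show c 0 (a 0) (c 1 (a 1) (c 2 (a 2) (c 3 (a 3) (x 2)))) = if a 2 then x 2 * z else x 2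
      rw [hcx 3 _ 2 (by decide), hcc, hcxz 1 _ 2 _ (by decide), hcxz 0 _ 2 _ (by decide)]
    · show c 0 (a 0) (c 1 (a 1) (c 2 (a 2) (c 3 (a 3) (x 3)))) = if a 3 then x 3 * z else x 3
      rw [hcc, hcxz 2 _ 3 _ (by decide), hcxz 1 _ 3 _ (by decide), hcxz 0 _ 3 _ (by decide)]

end

end Cfsg.Agent.H476.TF
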