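import Cfsg.Agent.H166.EP.CData
import Cfsg.Agent.H129.TorusChar
import Cfsg.Agent.S1092

/-!
# The centralizers of the elements of order 3, 5, 13 of `F₄(q)` (helper476, from helper166's `CData`)

* `mS_le` : at most `9` positive roots are trivial on a torus element of order `3`, `5` or `13`;
* `card_cent_le` : `|C_G(x)| ≤ q ^ 9 (q + 1) ^ 13 · 9`.
-/

set_option autoImplicit false
set_option linter.unusedSectionVars false

namespace Cfsg.Agent.H476.TF

open CoxeterSystem Cfsg Cfsg.Lie Cfsg.Lie.ChevalleyDatum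
open Cfsg.Agent.ChevalleyStructure Cfsg.Agent.ChevalleyStructure.RootVec
open Cfsg.Agent.Tits.Roots Cfsg.Agent.Tits.Core Cfsg.Agent.Nodes Cfsg.Agent.Nodes.RGDChev
open Cfsg.Agent.KFacts.RgdField Cfsg.Agent.KFacts.RgdChevCoord
open Cfsg.Agent.BpExc Cfsg.Agent.BpExc.TorCent Cfsg.Agent.BpExc.TorChev Cfsg.Agent.BpExc.NChev
  Cfsg.Agent.GpExc.Field Cfsg.Agent.H129.TorusChar Cfsg.Agent.H166.EP

universe u

/-- the positive roots -/
def posL : List (ℕ × ℕ × ℕ × ℕ) := [(0, 0, 0, 1), (0, 0, 1, 0), (0, 0, 1, 1), (0, 1, 0, 0), (0, 1, 1, 0), (0, 1, 1, 1),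
  (0, 2, 1, 0), (0, 2, 1, 1), (0, 2, 2, 1), (1, 0, 0, 0), (1, 1, 0, 0), (1, 1, 1, 0), (1, 1, 1, 1), (1, 2, 1, 0),
  (1, 2, 1, 1), (1, 2, 2, 1), (1, 3, 2, 1), (2, 2, 1, 0), (2, 2, 1, 1), (2, 2, 2, 1), (2, 3, 2, 1), (2, 4, 2, 1),
  (2, 4, 3, 1), (2, 4, 3, 2)]

theorem posL_spec0 : ∀ r : Fin 48, 0 ≤ vec chevF4 4 r 0 → 0 ≤ vec chevF4 4 r 1 → 0 ≤ vec chevF4 4 r 2 →
    0 ≤ vec chevF4 4 r 3 →
    ((vec chevF4 4 r 0).toNat, (vec chevF4 4 r 1).toNat, (vec chevF4 4 r 2).toNat, (vec chevF4 4 r 3).toNat) ∈ posL := by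
  decide +kernel

theorem posL_spec (r : ℕ) (hr : r < 48) (h : ∀ i : Fin 4, 0 ≤ vec chevF4 4 r i) :
    ((vec chevF4 4 r 0).toNat, (vec chevF4 4 r 1).toNat, (vec chevF4 4 r 2).toNat, (vec chevF4 4 r 3).toNat) ∈ posL :=
  posL_spec0 ⟨r, hr⟩ (h 0) (h 1) (h 2) (h 3)

/-- the form -/
def ev4 (a b c d : ℕ) (r : ℕ × ℕ × ℕ × ℕ) : ℕ := r.1 * a + (r.2.1 * b + (r.2.2.1 * c + r.2.2.2 * d))

/-- the number of the positive roots killed -/
def cnt (l a b c d : ℕ) : ℕ := (posL.filter fun r => ev4 a b c d r % l == 0).length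

/-- all `k < n` -/
def allN (n : ℕ) (p : ℕ → Bool) : Bool := Nat.rec true (fun k acc => p k && acc) n

theorem allN_spec {n : ℕ} {p : ℕ → Bool} (h : allN n p = true) : ∀ k, k < n → p k = true := by
  induction n with
  | zero => intro k hk; omega
  | succ n ih =>
    have h' : (p n && allN n p) = true := h
    rw [Bool.and_eq_true] at h'
    intro k hk
    rcases Nat.lt_succ_iff_lt_or_eq.mp hk with h1 | h1
    · exact ih h'.2 k h1
    · exact h1 ▸ h'.1

/-- the normalised forms -/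
def chkL (l : ℕ) : Bool :=
  (allN l fun b => allN l fun c => allN l fun d => Nat.ble (cnt l 1 b c d) 9) &&
  ((allN l fun c => allN l fun d => Nat.ble (cnt l 0 1 c d) 9) &&
  ((allN l fun d => Nat.ble (cnt l 0 0 1 d) 9) && Nat.ble (cnt l 0 0 0 1) 9))

theorem chk3 : chkL 3 = true := by decide +kernel
theorem chk5 : chkL 5 = true := by decide +kernel
theorem chk13 : chkL 13 = true := by decide +kernel

theorem chkL_spec {l a b c d : ℕ} (h : chkL l = true) (hb : b < l) (hc : c < l) (hd : d < l)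
    (hn : a = 1 ∨ (a = 0 ∧ (b = 1 ∨ (b = 0 ∧ (c = 1 ∨ (c = 0 ∧ d = 1)))))) : cnt l a b c d ≤ 9 := by
  simp only [chkL, Bool.and_eq_true] at h
  obtain ⟨h1, h2, h3, h4⟩ := h
  apply Nat.le_of_ble_eq_true
  rcases hn with rfl | ⟨rfl, rfl | ⟨rfl, rfl | ⟨rfl, rfl⟩⟩⟩
  · exact allN_spec (allN_spec (allN_spec h1 b hb) c hc) d hd
  · exact allN_spec (allN_spec h2 c hc) d hd
  · exact allN_spec h3 d hd
  · exact h4

theorem ncard_le {S : Set (Fin 4 → ℤ)} {L : List (ℕ × ℕ × ℕ × ℕ)}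
    (h : ∀ a ∈ S, (∀ i, 0 ≤ a i) ∧ ((a 0).toNat, (a 1).toNat, (a 2).toNat, (a 3).toNat) ∈ L) : S.ncard ≤ L.length := by
  classical
  have h1 : S.ncard ≤ ((L.toFinset : Finset (ℕ × ℕ × ℕ × ℕ)) : Set (ℕ × ℕ × ℕ × ℕ)).ncard := by
    refine Set.ncard_le_ncard_of_injOn (fun a => ((a 0).toNat, (a 1).toNat, (a 2).toNat, (a 3).toNat)) ?_ ?_
      (Set.toFinite _)
    · intro a ha
      exact List.mem_toFinset.2 (h a ha).2
    · intro a ha b hb hab
      have ha' := (h a ha).1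
      have hb' := (h b hb).1
      simp only [Prod.mk.injEq] at hab
      funext i
      have e0 := ha' 0
      have e1 := ha' 1
      have e2 := ha' 2
      have e3 := ha' 3
      have f0 := hb' 0
      have f1 := hb' 1
      have f2 := hb' 2
      have f3 := hb' 3
      fin_cases i
      · show a 0 = b 0
        omega
      · show a 1 = b 1
        omega
      · show a 2 = b 2
        omega
      · show a 3 = b 3
        omega
  rw [Set.ncard_coe_finset] at h1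
  exact h1.trans (List.toFinset_card_le L)

/-- the count for a form -/
theorem count {l : ℕ} [Fact l.Prime] (hl : chkL l = true) {f : (Fin 4 → ℤ) →+ ZMod l} (hf : f ≠ 0)
    {S : Set (Fin 4 → ℤ)} (hS : ∀ a ∈ S, (∀ i, 0 ≤ a i) ∧ (∃ r < 48, vec chevF4 4 r = a) ∧ f a = 0) : S.ncard ≤ 9 := by
  have : NeZero l := ⟨(Fact.out : l.Prime).ne_zero⟩
  have h1l : 1 < l := (Fact.out : l.Prime).one_lt
  -- the coordinates
  have hfa : ∀ (g : (Fin 4 → ℤ) →+ ZMod l) (a : Fin 4 → ℤ), g a = (a 0 : ZMod l) * g (sr 0) + ((a 1 : ZMod l) * g (sr 1) +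
      ((a 2 : ZMod l) * g (sr 2) + (a 3 : ZMod l) * g (sr 3))) := by
    intro g a
    have e : a = a 0 • (sr 0 : Fin 4 → ℤ) + (a 1 • sr 1 + (a 2 • sr 2 + a 3 • sr 3)) := by
      funext i
      fin_cases i <;> simp [sr]
    conv_lhs => rw [e]
    rw [map_add, map_add, map_add, map_zsmul, map_zsmul, map_zsmul, map_zsmul]
    simp only [zsmul_eq_mul]
  -- normalise
  obtain ⟨g, hg, hgn⟩ : ∃ g : (Fin 4 → ℤ) →+ ZMod l, (∀ a, f a = 0 → g a = 0) ∧
      (g (sr 0) = 1 ∨ (g (sr 0) = 0 ∧ (g (sr 1) = 1 ∨ (g (sr 1) = 0 ∧ (g (sr 2) = 1 ∨ (g (sr 2) = 0 ∧ g (sr 3) = 1)))))) := by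
    have key : ∀ u : ZMod l, ∃ g : (Fin 4 → ℤ) →+ ZMod l, (∀ a, g a = u * f a) := fun u =>
      ⟨(AddMonoidHom.mulLeft u).comp f, fun a => rfl⟩
    by_cases h0 : f (sr 0) = 0
    · by_cases h1 : f (sr 1) = 0
      · by_cases h2 : f (sr 2) = 0
        · by_cases h3 : f (sr 3) = 0
          · exfalso
            apply hf
            refine AddMonoidHom.ext fun a => ?_
            rw [hfa, h0, h1, h2, h3]
            simp
          · obtain ⟨g, hg⟩ := key (f (sr 3))⁻¹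
            refine ⟨g, fun a ha => by rw [hg, ha, mul_zero], Or.inr ⟨by rw [hg, h0, mul_zero], Or.inr ⟨by
              rw [hg, h1, mul_zero], Or.inr ⟨by rw [hg, h2, mul_zero], by rw [hg, inv_mul_cancel₀ h3]⟩⟩⟩⟩
        · obtain ⟨g, hg⟩ := key (f (sr 2))⁻¹
          refine ⟨g, fun a ha => by rw [hg, ha, mul_zero], Or.inr ⟨by rw [hg, h0, mul_zero], Or.inr ⟨by
            rw [hg, h1, mul_zero], Or.inl (by rw [hg, inv_mul_cancel₀ h2])⟩⟩⟩
      · obtain ⟨g, hg⟩ := key (f (sr 1))⁻¹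
        refine ⟨g, fun a ha => by rw [hg, ha, mul_zero], Or.inr ⟨by rw [hg, h0, mul_zero], Or.inl (by
          rw [hg, inv_mul_cancel₀ h1])⟩⟩
    · obtain ⟨g, hg⟩ := key (f (sr 0))⁻¹
      exact ⟨g, fun a ha => by rw [hg, ha, mul_zero], Or.inl (by rw [hg, inv_mul_cancel₀ h0])⟩
  have v1 : (1 : ZMod l).val = 1 := ZMod.val_one'' (by omega)
  have v0 : (0 : ZMod l).val = 0 := ZMod.val_zero
  have hc := chkL_spec (a := (g (sr 0)).val) (b := (g (sr 1)).val) (c := (g (sr 2)).val) (d := (g (sr 3)).val) hl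
    (ZMod.val_lt _) (ZMod.val_lt _) (ZMod.val_lt _) (by
      rcases hgn with h | ⟨h, h' | ⟨h', h'' | ⟨h'', h3⟩⟩⟩
      · left; rw [h, v1]
      · right; exact ⟨by rw [h, v0], Or.inl (by rw [h', v1])⟩
      · right; exact ⟨by rw [h, v0], Or.inr ⟨by rw [h', v0], Or.inl (by rw [h'', v1])⟩⟩
      · right; exact ⟨by rw [h, v0], Or.inr ⟨by rw [h', v0], Or.inr ⟨by rw [h'', v0], by rw [h3, v1]⟩⟩⟩)
  refine (ncard_le (L := posL.filter fun r => ev4 (g (sr 0)).val (g (sr 1)).val (g (sr 2)).val (g (sr 3)).val r % l == 0)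
    fun a ha => ?_).trans hc
  obtain ⟨h1, ⟨r, hr, hra⟩, h3⟩ := hS a ha
  refine ⟨h1, List.mem_filter.2 ⟨?_, ?_⟩⟩
  · have h4 := posL_spec r hr (by rw [hra]; exact h1)
    rw [hra] at h4
    exact h4
  · rw [beq_iff_eq]
    apply Nat.mod_eq_zero_of_dvd
    rw [← ZMod.natCast_eq_zero_iff]
    have h5 := hg a h3
    rw [hfa g a] at h5
    have ht : ∀ i, ((((a i).toNat : ℕ)) : ZMod l) = (a i : ZMod l) := by
      intro i
      have h6 := Int.toNat_of_nonneg (h1 i)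
      have h7 := congrArg (Int.cast : ℤ → ZMod l) h6
      rw [Int.cast_natCast] at h7
      exact h7
    unfold ev4
    push_cast
    rw [ht, ht, ht, ht, ZMod.natCast_zmod_val, ZMod.natCast_zmod_val, ZMod.natCast_zmod_val, ZMod.natCast_zmod_val]
    exact h5

/-! ### The torus elements -/

section

variable {D : ChevalleyDatum} {l : ℕ} {M : CoxeterMatrix (Fin l)} (hp : IsType D l M) {k : Type u} [Field k]

/-- The additive form of an element of prime order of the torus (copy of `H972.CS.Main.exists_add`). -/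
theorem exists_addF [IsAlgClosed k] {s : ℕ} (hs : s.Prime) (hsk : (s : k) ≠ 0) {t : ↥(D.group k)} (ht : t ∈ TT D k)
    (hts : t ^ s = 1) : ∃ f : (Fin l → ℤ) →+ ZMod s, ∀ x, cX hp t x = 1 ↔ f x = 0 := by
  classical
  have : Fact s.Prime := ⟨hs⟩
  have : NeZero (s : k) := ⟨hsk⟩
  have : NeZero s := ⟨hs.ne_zero⟩
  obtain ⟨ζ, hζ⟩ := HasEnoughRootsOfUnity.exists_primitiveRoot k s
  have h1 : ∀ i : Fin l, ∃ j < s, ζ ^ j = cX hp t (sr i) := by
    intro i
    refine hζ.eq_pow_of_pow_eq_one ?_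
    rw [← cX_pow hp ht, hts, cX_one]
  choose j hj hj' using h1
  let f : (Fin l → ℤ) →+ ZMod s :=
    { toFun := fun x => ∑ i, (x i : ZMod s) * (j i : ZMod s)
      map_zero' := by simp
      map_add' := fun x y => by
        rw [← Finset.sum_add_distrib]
        refine Finset.sum_congr rfl fun i _ => ?_
        rw [Pi.add_apply, Int.cast_add, add_mul] }
  have hf : ∀ i, f (sr i) = (j i : ZMod s) := by
    intro i
    show ∑ i', ((sr i : Fin l → ℤ) i' : ZMod s) * (j i' : ZMod s) = _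
    rw [Finset.sum_eq_single i]
    · simp [sr]
    · intro b _ hb
      simp [sr, hb]
    · intro h; exact absurd (Finset.mem_univ i) h
  have hζ1 : ∀ n : ℕ, ζ ^ (n % s) = ζ ^ n := fun n => by
    conv_rhs => rw [← Nat.mod_add_div n s, pow_add, pow_mul, hζ.pow_eq_one, one_pow, mul_one]
  have hψ : IsMC (fun x : Fin l → ℤ => ζ ^ (f x).val) :=
    { zero := by
        show ζ ^ (f 0).val = 1
        rw [map_zero, ZMod.val_zero, pow_zero]
      add := fun x y => by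
        show ζ ^ (f (x + y)).val = ζ ^ (f x).val * ζ ^ (f y).val
        rw [map_add, ZMod.val_add, hζ1, pow_add] }
  have key : ∀ x, cX hp t x = ζ ^ (f x).val := by
    refine fun x => (isMC_cX hp ht).ext hψ (fun i => ?_) x
    rw [hf, ZMod.val_natCast, hζ1, hj']
  refine ⟨f, fun x => ?_⟩
  rw [key, hζ.pow_eq_one_iff_dvd]
  constructor
  · intro h
    exact (ZMod.val_eq_zero _).1 (Nat.eq_zero_of_dvd_of_lt h (ZMod.val_lt _))
  · intro h
    rw [h, ZMod.val_zero]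
    exact dvd_zero _

end

section

variable {M : CoxeterMatrix (Fin 4)} (hp : IsType chevF4 4 M) {k : Type u} [Field k]
  {W : Type*} [Group W] [Finite W] (cs : CoxeterSystem M W)

/-- **at most `9` positive roots are trivial on `t`** -/
theorem mS_le [IsAlgClosed k] {ℓ : ℕ} (hℓ : ℓ.Prime) (hℓk : (ℓ : k) ≠ 0) (hc : chkL ℓ = true)
    {t : ↥(chevF4.group k)} (ht : t ∈ TT chevF4 k) (htℓ : t ^ ℓ = 1) (ht1 : t ≠ 1) : mS hp cs t ≤ 9 := by
  have : Fact ℓ.Prime := ⟨hℓ⟩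
  obtain ⟨f, hf⟩ := exists_addF hp hℓ hℓk ht htℓ
  have hf0 : f ≠ 0 := by
    intro h0
    apply ht1
    refine cX_inj hp ht (one_mem _) fun i => ?_
    rw [cX_one, hf, h0]
    rfl
  refine count hc hf0 fun a ha => ?_
  obtain ⟨⟨h1, h2⟩, h3⟩ := ha
  refine ⟨fun i => h3 i, ?_, ?_⟩
  · obtain ⟨r, hr, e⟩ := (isRoot_iff hp cs a).1 h1
    exact ⟨r, hr, e⟩
  · rw [← hf, cX_root hp cs ht h1]
    exact h2

end

/-! ### The bound -/

theorem card_pgroup_le {W : Type*} [Group W] (hW : Nat.card W = 1152) {ℓ : ℕ} (h : ℓ = 3 ∨ ℓ = 5 ∨ ℓ = 13)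
    {P : Subgroup W} (hP : IsPGroup ℓ ↥P) : Nat.card ↥P ≤ 9 := by
  have hf : Finite W := Nat.finite_of_card_ne_zero (by rw [hW]; norm_num)
  have hℓ : ℓ.Prime := by rcases h with rfl | rfl | rfl <;> norm_num
  have : Fact ℓ.Prime := ⟨hℓ⟩
  obtain ⟨n, hn⟩ := hP.exists_card_eq
  have h1 : ℓ ^ n ∣ 2 ^ 7 * 3 ^ 2 := by
    have h2 : (2 ^ 7 * 3 ^ 2 : ℕ) = 1152 := by norm_num
    rw [h2, ← hW, ← hn]
    exact Subgroup.card_subgroup_dvd_card P
  have h3 : ℓ ^ n ∣ 3 ^ 2 := by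
    refine Nat.Coprime.dvd_of_dvd_mul_left ?_ h1
    refine Nat.Coprime.pow _ _ ((Nat.coprime_primes hℓ Nat.prime_two).2 ?_)
    rcases h with rfl | rfl | rfl <;> norm_num
  rw [hn]
  exact Nat.le_of_dvd (by norm_num) h3

theorem typeF4 : IsType chevF4 4 CoxeterMatrix.F₄ := by simp [IsType, typeList]

/-- **the centralizers of the elements of order `3`, `5`, `13` in `F₄(q)`** -/
theorem card_cent_le {F : Type u} [Field F] [Finite F] {ℓ : ℕ} (h : ℓ = 3 ∨ ℓ = 5 ∨ ℓ = 13) (hℓF : (ℓ : F) ≠ 0)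
    (x : ↥(chevF4.group F)) (hx : orderOf x = ℓ) : Nat.card ↥(Subgroup.centralizer {x}) ≤
      Nat.card F ^ 9 * ((Nat.card F + 1) ^ 4 * (9 * (Nat.card F + 1) ^ 9)) := by
  have hℓ : ℓ.Prime := by rcases h with rfl | rfl | rfl <;> norm_num
  have hc : chkL ℓ = true := by
    rcases h with rfl | rfl | rfl
    · exact chk3
    · exact chk5
    · exact chk13
  have hW : Nat.card CoxeterMatrix.F₄.Group = 1152 := S1092.result (⟨4, CoxeterMatrix.F₄⟩, 1152) (by simp)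
  have hfW : Finite CoxeterMatrix.F₄.Group := Nat.finite_of_card_ne_zero (by rw [hW]; norm_num)
  obtain ⟨k, _, _, f, r, e, _, _, t, g, N, H⟩ := exists_cd typeF4 CoxeterMatrix.F₄.toCoxeterSystem hℓ hℓF x
    (by rw [← hx, pow_orderOf_eq_one])
  have hℓk : (ℓ : k) ≠ 0 := by
    rw [← map_natCast f, Ne, map_eq_zero]
    exact hℓF
  have ht1 : t ≠ 1 := by
    rintro rfl
    obtain ⟨z, hz⟩ := H.conj
    have h1 : emb typeF4.inList f x = 1 := by
      have h2 : emb typeF4.inList f x = z * (z⁻¹ * emb typeF4.inList f x * z) * z⁻¹ := by group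
      rw [h2, hz]
      group
    have h3 : x = 1 := emb_injective typeF4.inList f (by rw [h1, map_one])
    rw [h3, orderOf_one] at hx
    exact hℓ.one_lt.ne hx
  have hm := mS_le typeF4 CoxeterMatrix.F₄.toCoxeterSystem hℓ hℓk hc H.mem H.pow ht1
  have hP := card_pgroup_le hW h H.isP
  have hq : 0 < Nat.card F := Nat.card_pos
  refine H.bound.trans ?_
  refine Nat.mul_le_mul (Nat.pow_le_pow_right hq hm) (Nat.mul_le_mul H.le (Nat.mul_le_mul hP ?_))
  exact Nat.pow_le_pow_right (by omega) hm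

end Cfsg.Agent.H476.TF
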