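import Cfsg.Agent.TitsK.Model
import Cfsg.Agent.TitsK.Inst

/-!
# No involution of the Tits group has a Sylow 2-subgroup as centralizer (helper476, for S5745)

This is the hypothesis of `H742.EX.EPS.hM_two` for `T` the Tits group.
-/

set_option autoImplicit false

namespace Cfsg.Agent.H476.TF

open Subgroup Cfsg.Agent.TitsK
open scoped Pointwise

theorem two_dvd {G : Type*} [Group G] [Finite G] (D : TData G) (t : ↥D.T) (ht : orderOf t = 2)
    (h2 : IsPGroup 2 ↥(centralizer ({t} : Set ↥D.T))) : 2 ∣ (centralizer ({t} : Set ↥D.T)).index := by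
  by_contra hi
  have h2f : Fact (Nat.Prime 2) := ⟨Nat.prime_two⟩
  have hS2 : IsPGroup 2 ↥(D.U.subgroupOf D.T) := D.isPGroup_U.comap_of_injective D.T.subtype D.T.subtype_injective
  have hSi : ¬ 2 ∣ (D.U.subgroupOf D.T).index := by
    have h1 := D.odd_S
    rw [inf_relIndex_right] at h1
    exact h1
  obtain ⟨g, hg⟩ := MulAction.exists_smul_eq ↥D.T (h2.toSylow hi) (hS2.toSylow hSi)
  have hmem : ∀ y : ↥D.T, y ∈ centralizer ({t} : Set ↥D.T) ↔ ((g * y * g⁻¹ : ↥D.T) : G) ∈ D.U := by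
    intro y
    have h1 : g * y * g⁻¹ ∈ ((g • (h2.toSylow hi : Sylow 2 ↥D.T) : Sylow 2 ↥D.T) : Subgroup ↥D.T) ↔
        y ∈ centralizer ({t} : Set ↥D.T) := by
      rw [Sylow.coe_subgroup_smul]
      have h3 : g * y * g⁻¹ = MulAut.conj g • y := rfl
      rw [h3, smul_mem_pointwise_smul_iff]
      rfl
    rw [← h1, hg]
    rfl
  have hz0 : (g * t * g⁻¹ : ↥D.T) ≠ 1 := by
    intro h
    have h1 : t = 1 := by
      have : t = g⁻¹ * (g * t * g⁻¹) * g := by group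
      rw [this, h]; group
    rw [h1, orderOf_one] at ht
    norm_num at ht
  have htU : ((g * t * g⁻¹ : ↥D.T) : G) ∈ D.U := (hmem t).1 (mem_centralizer_singleton_iff.2 rfl)
  have hcz : ((g * t * g⁻¹ : ↥D.T) : G) = D.z := by
    rcases D.cent_S _ htU (fun c hc => by
      have h4 : (g⁻¹ * ⟨c, hc.2⟩ * g : ↥D.T) ∈ centralizer ({t} : Set ↥D.T) := by
        rw [hmem]
        have : g * (g⁻¹ * ⟨c, hc.2⟩ * g) * g⁻¹ = (⟨c, hc.2⟩ : ↥D.T) := by group
        rw [this]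
        exact hc.1
      rw [mem_centralizer_singleton_iff] at h4
      have h5 : (⟨c, hc.2⟩ : ↥D.T) * (g * t * g⁻¹) = (g * t * g⁻¹) * ⟨c, hc.2⟩ := by
        calc (⟨c, hc.2⟩ : ↥D.T) * (g * t * g⁻¹) = g * ((g⁻¹ * ⟨c, hc.2⟩ * g) * t) * g⁻¹ := by group
          _ = g * (t * (g⁻¹ * ⟨c, hc.2⟩ * g)) * g⁻¹ := by rw [h4]
          _ = (g * t * g⁻¹) * ⟨c, hc.2⟩ := by group
      exact congrArg Subtype.val h5.symm) with h5 | h5
    · exact absurd (Subtype.ext h5) hz0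
    · exact h5
  have hb : (⟨D.zbm, D.zbm_mem⟩ : ↥D.T) * (g * t * g⁻¹) = (g * t * g⁻¹) * ⟨D.zbm, D.zbm_mem⟩ := by
    apply Subtype.ext
    show D.zbm * ((g * t * g⁻¹ : ↥D.T) : G) = ((g * t * g⁻¹ : ↥D.T) : G) * D.zbm
    rw [hcz]
    exact mul_inv_eq_iff_eq_mul.1 D.zbm_z
  have h6 : (g⁻¹ * ⟨D.zbm, D.zbm_mem⟩ * g : ↥D.T) ∈ centralizer ({t} : Set ↥D.T) := by
    rw [mem_centralizer_singleton_iff]
    calc g⁻¹ * ⟨D.zbm, D.zbm_mem⟩ * g * t = g⁻¹ * (⟨D.zbm, D.zbm_mem⟩ * (g * t * g⁻¹)) * g := by group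
      _ = g⁻¹ * ((g * t * g⁻¹) * ⟨D.zbm, D.zbm_mem⟩) * g := by rw [hb]
      _ = t * (g⁻¹ * ⟨D.zbm, D.zbm_mem⟩ * g) := by group
  rw [hmem] at h6
  have h7 : g * (g⁻¹ * ⟨D.zbm, D.zbm_mem⟩ * g) * g⁻¹ = (⟨D.zbm, D.zbm_mem⟩ : ↥D.T) := by group
  rw [h7] at h6
  exact D.zbm_ne (D.opp _ h6 D.zbm_opp)

theorem two_dvd_congr {X Y : Type*} [Group X] [Group Y] (e : X ≃* Y)
    (h : ∀ t : Y, orderOf t = 2 → IsPGroup 2 ↥(centralizer ({t} : Set Y)) → 2 ∣ (centralizer ({t} : Set Y)).index)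
    (t : X) (ht : orderOf t = 2) (h2 : IsPGroup 2 ↥(centralizer ({t} : Set X))) :
    2 ∣ (centralizer ({t} : Set X)).index := by
  have h3 : (centralizer ({e t} : Set Y)).comap e.toMonoidHom = centralizer ({t} : Set X) := by
    ext y
    rw [mem_comap, mem_centralizer_singleton_iff, mem_centralizer_singleton_iff]
    show e y * e t = e t * e y ↔ _
    rw [← map_mul, ← map_mul, e.injective.eq_iff]
  have h4 := h (e t) (by rw [e.orderOf_eq, ht]) ?_
  · rw [← h3, Subgroup.index_comap_of_surjective _ e.surjective]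
    exact h4
  · have h5 : (centralizer ({t} : Set X)).map e.toMonoidHom = centralizer ({e t} : Set Y) := by
      rw [← h3, Subgroup.map_comap_eq_self_of_surjective e.surjective]
    rw [← h5]
    exact h2.map _

/-- no involution has a Sylow `2`-subgroup as centralizer -/
def NoC (X : Type*) [Group X] : Prop := ∀ t : X, orderOf t = 2 → IsPGroup 2 ↥(centralizer ({t} : Set X)) →
  2 ∣ (centralizer ({t} : Set X)).index

theorem NoC.congr {X Y : Type*} [Group X] [Group Y] (h : NoC Y) (e : X ≃* Y) : NoC X := two_dvd_congr e h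

theorem noC_TT : NoC ↥TitsK.TT := two_dvd tdata

/-- **the Tits group** -/
theorem noC_tits {T : Type*} [Group T] (hT : Cfsg.Lie.IsoTits T) : NoC T := by
  obtain ⟨e⟩ := hT
  obtain ⟨e'⟩ := TitsK.exists_equiv
  have hfin : Finite Cfsg.Agent.FourTwo.Base.LL := by infer_instance
  have h1 : T ≃* ↥TitsK.TT := e.trans e'
  have h2 := noC_TT
  exact h2.congr h1

theorem card_tits {T : Type*} [Group T] (hT : Cfsg.Lie.IsoTits T) : Nat.card T = 17971200 := by
  obtain ⟨e⟩ := hT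
  obtain ⟨e'⟩ := TitsK.exists_equiv
  have h1 : T ≃* ↥TitsK.TT := e.trans e'
  have h2 := Nat.card_congr h1.toEquiv
  have h3 : (2 ^ 11 * 3 ^ 3 * 5 ^ 2 * 13 : ℕ) = 17971200 := by norm_num
  exact h2.trans (TitsK.card_TT.trans h3)

end Cfsg.Agent.H476.TF
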